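import Cfsg.Agent.Lib.Helper35.JR.Defs

/-!
# JR [FUS]: fusion of involutions in a simple group with Sylow 2-subgroups `E₈`
-/

set_option autoImplicit false

namespace Cfsg.Agent.Lib.Helper11.JR

open Cfsg.Agent.Lib.Helper35.JR

universe u

theorem exp2_comm {G : Type u} [Group G] (S : Subgroup G) (hexp : ∀ x ∈ S, x ^ 2 = 1) :
    ∀ x ∈ S, ∀ y ∈ S, x * y = y * x := by
  intro x hx y hy
  have h1 := hexp x hx
  have h2 := hexp y hy
  have h3 := hexp (x * y) (mul_mem hx hy)
  have hx' : x⁻¹ = x := inv_eq_of_mul_eq_one_left (by rw [← sq]; exact h1)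
  have hy' : y⁻¹ = y := inv_eq_of_mul_eq_one_left (by rw [← sq]; exact h2)
  have hxy : (x * y)⁻¹ = x * y := inv_eq_of_mul_eq_one_left (by rw [← sq]; exact h3)
  rw [← hxy, mul_inv_rev, hx', hy']

open scoped IsMulCommutative in
/-- no nontrivial element of an elementary abelian Sylow 2-subgroup of a nonabelian simple
group is centralized by the normalizer of the Sylow subgroup (transfer). -/
theorem fus_no_fixed {G : Type u} [Group G] [Finite G] [IsSimpleGroup G]
    (hnc : ¬ IsMulCommutative G) (S : Sylow 2 G)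
    (hexp : ∀ x ∈ (S : Subgroup G), x ^ 2 = 1) (s : G) (hs : s ∈ (S : Subgroup G))
    (hfix : ∀ n ∈ Subgroup.normalizer ((S : Subgroup G) : Set G), n * s * n⁻¹ = s) : s = 1 := by
  haveI : Fact (Nat.Prime 2) := ⟨Nat.prime_two⟩
  have hab := exp2_comm (S : Subgroup G) hexp
  haveI : IsMulCommutative S := ⟨⟨fun a b => Subtype.ext (hab a a.2 b b.2)⟩⟩
  have key : ∀ (k : ℕ) (g₀ : G), g₀⁻¹ * s ^ k * g₀ ∈ (S : Subgroup G) →
      g₀⁻¹ * s ^ k * g₀ = s ^ k := by
    intro k g₀ h
    obtain ⟨n, hn, h'⟩ := S.conj_eq_normalizer_conj_of_mem (s ^ k) g₀ (pow_mem hs k) h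
    rw [h']
    have h2 : n⁻¹ * s * (n⁻¹)⁻¹ = s := hfix n⁻¹ (inv_mem hn)
    have h3 := conj_pow (a := n⁻¹) (b := s) (i := k)
    rw [h2, inv_inv] at h3
    exact h3.symm
  have hτ := MonoidHom.transfer_eq_pow (MonoidHom.id S) s key
  rcases IsSimpleGroup.eq_bot_or_eq_top_of_normal
      (MonoidHom.transfer (MonoidHom.id S)).ker (MonoidHom.normal_ker _) with hk | hk
  · exfalso; apply hnc
    refine ⟨⟨fun x y => ?_⟩⟩
    have : (MonoidHom.transfer (MonoidHom.id S)) (x * y)
        = (MonoidHom.transfer (MonoidHom.id S)) (y * x) := by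
      rw [map_mul, map_mul, mul_comm]
    exact (MonoidHom.ker_eq_bot_iff _).mp hk this
  · have h1 : (MonoidHom.transfer (MonoidHom.id S)) s = 1 := by
      have : s ∈ (MonoidHom.transfer (MonoidHom.id S)).ker := hk ▸ Subgroup.mem_top s
      exact this
    rw [hτ] at h1
    have h2 : s ^ (S : Subgroup G).index = 1 := by simpa using congrArg Subtype.val h1
    have hodd : ¬ 2 ∣ (S : Subgroup G).index := S.not_dvd_index
    obtain ⟨m, hm⟩ : Odd (S : Subgroup G).index := by
      rw [← Nat.not_even_iff_odd, even_iff_two_dvd]; exact hodd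
    rw [hm, pow_succ, pow_mul, hexp s hs, one_pow, one_mul] at h2
    exact h2

theorem pkgFus : PkgFus.{u} := by
  intro G _ _ _ hnc hS8 S s hs hs1 s' hs' hs'1
  classical
  haveI : Fact (Nat.Prime 2) := ⟨Nat.prime_two⟩
  obtain ⟨hcard, hexp⟩ := hS8 S
  have hab := exp2_comm (S : Subgroup G) hexp
  set N : Subgroup G := Subgroup.normalizer ((S : Subgroup G) : Set G) with hN
  letI act : MulAction N G :=
    MulAction.compHom G ((MulAut.conj : G →* MulAut G).comp N.subtype)
  have hsmul : ∀ (n : N) (x : G), n • x = (n : G) * x * (n : G)⁻¹ := fun n x => rfl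
  let X : Set G := {x | x ∈ (S : Subgroup G) ∧ x ≠ 1}
  have hXcard : X.ncard = 7 := by
    have h1 : ((S : Subgroup G) : Set G).ncard = 8 := by
      rw [← hcard]; exact (Nat.card_coe_set_eq _).symm
    have h2 : X = ((S : Subgroup G) : Set G) \ {1} := by
      ext x; exact ⟨fun h => ⟨h.1, h.2⟩, fun h => ⟨h.1, h.2⟩⟩
    rw [h2, Set.ncard_diff (by simpa using one_mem (S : Subgroup G)), h1, Set.ncard_singleton]
  have horbX : ∀ x ∈ X, MulAction.orbit N x ⊆ X := by
    rintro x ⟨hx, hx1⟩ y ⟨n, rfl⟩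
    refine ⟨?_, ?_⟩
    · show n • x ∈ (S : Subgroup G)
      rw [hsmul]
      exact (Subgroup.mem_normalizer_iff.mp n.2 x).mp hx
    · show n • x ≠ 1
      rw [hsmul]; intro h; apply hx1
      have := congrArg (fun z => (n : G)⁻¹ * z * (n : G)) h
      simpa [mul_assoc] using this
  have hodd : ∀ x ∈ X, Odd (MulAction.orbit N x).ncard := by
    rintro x ⟨hx, hx1⟩
    rw [← MulAction.index_stabilizer]
    have hle : (S : Subgroup G).subgroupOf N ≤ MulAction.stabilizer N x := by
      intro n hn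
      rw [MulAction.mem_stabilizer_iff, hsmul]
      have := hab n (Subgroup.mem_subgroupOf.mp hn) x hx
      rw [this, mul_inv_cancel_right]
    have hdvd : (MulAction.stabilizer N x).index ∣ ((S : Subgroup G).subgroupOf N).index :=
      Subgroup.index_dvd_of_le hle
    have h2 : ((S : Subgroup G).subgroupOf N).index ∣ (S : Subgroup G).index :=
      Dvd.intro _ (Subgroup.relIndex_mul_index (Subgroup.le_normalizer))
    have h3 : ¬ 2 ∣ (S : Subgroup G).index := S.not_dvd_index
    rw [← Nat.not_even_iff_odd, even_iff_two_dvd]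
    intro h; exact h3 (dvd_trans (dvd_trans h hdvd) h2)
  have hne1 : ∀ x ∈ X, (MulAction.orbit N x).ncard ≠ 1 := by
    rintro x ⟨hx, hx1⟩ h
    obtain ⟨a, ha⟩ := Set.ncard_eq_one.mp h
    have hxa : x = a := by
      have : x ∈ MulAction.orbit N x := MulAction.mem_orbit_self x
      rw [ha] at this; exact this
    apply hx1
    refine fus_no_fixed hnc S hexp x hx (fun n hn => ?_)
    have : (⟨n, hn⟩ : N) • x ∈ MulAction.orbit N x := MulAction.mem_orbit x _
    rw [ha, Set.mem_singleton_iff, hsmul] at this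
    exact this.trans hxa.symm
  have hdisj : ∀ x y : G, y ∉ MulAction.orbit N x →
      Disjoint (MulAction.orbit N x) (MulAction.orbit N y) := by
    intro x y hy
    rw [Set.disjoint_left]
    intro z hz hz'
    apply hy
    have e1 := MulAction.orbit_eq_iff.mpr hz
    have e2 := MulAction.orbit_eq_iff.mpr hz'
    rw [← e1, e2]; exact MulAction.mem_orbit_self y
  have hsX : s ∈ X := ⟨hs, hs1⟩
  have hs'X : s' ∈ X := ⟨hs', hs'1⟩
  by_contra hcon
  have hnot : s' ∉ MulAction.orbit N s := by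
    rintro ⟨n, hn⟩
    exact hcon ⟨n, n.2, hn⟩
  have hd := hdisj s s' hnot
  have hun : (MulAction.orbit N s ∪ MulAction.orbit N s').ncard
      = (MulAction.orbit N s).ncard + (MulAction.orbit N s').ncard := Set.ncard_union_eq hd
  have hsub : MulAction.orbit N s ∪ MulAction.orbit N s' ⊆ X :=
    Set.union_subset (horbX s hsX) (horbX s' hs'X)
  have hle7 := Set.ncard_le_ncard hsub
  rw [hun, hXcard] at hle7
  have ho1 := hodd s hsX
  have ho2 := hodd s' hs'X
  have hn1 := hne1 s hsX
  have hn2 := hne1 s' hs'X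
  obtain ⟨a, ha⟩ := ho1
  obtain ⟨b, hb⟩ := ho2
  have ha3 : (MulAction.orbit N s).ncard = 3 := by omega
  have hb3 : (MulAction.orbit N s').ncard = 3 := by omega
  have hR : (X \ (MulAction.orbit N s ∪ MulAction.orbit N s')).ncard = 1 := by
    rw [Set.ncard_diff hsub, hun, hXcard, ha3, hb3]
  obtain ⟨r, hr⟩ := Set.ncard_eq_one.mp hR
  have hrR : r ∈ X \ (MulAction.orbit N s ∪ MulAction.orbit N s') := by rw [hr]; rfl
  have hrX : r ∈ X := hrR.1
  have hr_orb : MulAction.orbit N r ⊆ {r} := by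
    intro z hz
    rw [← hr]
    refine ⟨horbX r hrX hz, ?_⟩
    rintro (h | h)
    · apply hrR.2; left
      have e1 := MulAction.orbit_eq_iff.mpr hz
      have e2 := MulAction.orbit_eq_iff.mpr h
      rw [← e2, e1]; exact MulAction.mem_orbit_self r
    · apply hrR.2; right
      have e1 := MulAction.orbit_eq_iff.mpr hz
      have e2 := MulAction.orbit_eq_iff.mpr h
      rw [← e2, e1]; exact MulAction.mem_orbit_self r
  have hle1 : (MulAction.orbit N r).ncard ≤ 1 := by
    have := Set.ncard_le_ncard hr_orb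
    simpa using this
  have ho3 := hodd r hrX
  have hn3 := hne1 r hrX
  obtain ⟨c, hc⟩ := ho3
  omega

end Cfsg.Agent.Lib.Helper11.JR
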